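import Groth.Agent.Dcoh.BddCx
import Groth.Agent.CohtopB.LeftRes
import Mathlib.CategoryTheory.Abelian.Projective.Dimension

/-!
# Representing objects of the derived category by bounded complexes of projectives

* `exists_projective_isStrictlyLE`: an object of `D(C)` (`C` abelian, `P` a class of objects of which every object is
  a quotient) with cohomology vanishing above `c` is `Q.obj L` with `L` termwise in `P` and vanishing above `c`.
* `hasProjectiveDimensionLT_opcycles`: dimension shifting along a complex of projectives exact below `a`.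
* `exists_projective_bounded`: if every object has projective dimension `≤ d` and the cohomology vanishes outside
  `[a, c]`, then `K` is `Q.obj L` with `L` termwise projective vanishing outside `[a - d, c]`.
-/

set_option autoImplicit false

universe w v u

open CategoryTheory CategoryTheory.Limits ZeroObject

namespace Groth.Agent.Htor.H258.Cut

section Cx

variable {C : Type u} [Category.{v} C] [Abelian C]

/-- Dimension shifting: if `K` is a complex of projectives, exact below `a`, and `K.opcycles a` has projective
dimension `< d + 1`, then `K.opcycles (a - j)` has projective dimension `< d - j + 1` for `j ≤ d`. -/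
theorem hasProjectiveDimensionLT_opcycles (K : CochainComplex C ℤ) (hp : ∀ i, Projective (K.X i)) (a : ℤ)
    (hK : ∀ i, i < a → IsZero (K.homology i)) (d : ℕ) (hd : HasProjectiveDimensionLT (K.opcycles a) (d + 1)) :
    ∀ (j : ℕ) (m : ℕ), j + m = d → ∀ i : ℤ, i + j = a → HasProjectiveDimensionLT (K.opcycles i) (m + 1) := by
  intro j
  induction j with
  | zero =>
    intro m hm i hi
    obtain rfl : m = d := by lia
    obtain rfl : i = a := by simpa using hi
    exact hd
  | succ j ih =>
    intro m hm i hi
    have h1 := ih (m + 1) (by lia) (i + 1) (by push_cast at hi; lia)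
    have hS := Dcoh.BddCx.shortExact_opcycles K i (i + 1) rfl (hK i (by push_cast at hi; lia))
    exact (hS.hasProjectiveDimensionLT_X₃_iff m (hp (i + 1))).1 h1

theorem projective_opcycles (K : CochainComplex C ℤ) (hp : ∀ i, Projective (K.X i)) (a : ℤ)
    (hK : ∀ i, i < a → IsZero (K.homology i)) (d : ℕ) (hd : HasProjectiveDimensionLT (K.opcycles a) (d + 1)) :
    Projective (K.opcycles (a - d)) := by
  have h := hasProjectiveDimensionLT_opcycles K hp a hK d hd d 0 (by lia) (a - d) (by lia)
  exact projective_iff_hasProjectiveDimensionLT_one.2 h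

end Cx

section Derived

variable {C : Type u} [Category.{v} C] [Abelian C] [HasDerivedCategory.{w} C]

open DerivedCategory

/-- An object of the derived category with cohomology vanishing above `c` is represented by a complex with terms in
`P`, vanishing above `c`. -/
theorem exists_prop_isStrictlyLE (P : C → Prop) (hP0 : ∃ Z : C, IsZero Z ∧ P Z)
    (hP : ∀ X : C, ∃ (Y : C) (π : Y ⟶ X), P Y ∧ Epi π) (K : DerivedCategory C) (c : ℤ)
    (hK : ∀ i, c < i → IsZero ((homologyFunctor C i).obj K)) :
    ∃ L : CochainComplex C ℤ, L.IsStrictlyLE c ∧ (∀ i, P (L.X i)) ∧ Nonempty (Q.obj L ≅ K) := by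
  let K₀ : CochainComplex C ℤ := Q.objPreimage K
  let e : Q.obj K₀ ≅ K := Q.objObjPreimageIso K
  have h0 : ∀ i, c < i → IsZero (K₀.homology i) := fun i hi =>
    (hK i hi).of_iso (((homologyFunctorFactors C i).app K₀).symm ≪≫ (homologyFunctor C i).mapIso e)
  obtain ⟨L, α, h1, h2, h3⟩ := CohtopB.LeftRes.exists_left_resolution' P hP0 hP K₀ c h0
  exact ⟨L, h1, h2, ⟨asIso (Q.map α) ≪≫ e⟩⟩

/-- The class of projective objects. -/
abbrev Proj (C : Type u) [Category.{v} C] : ObjectProperty C := fun X => Projective X

instance : (Proj C).IsClosedUnderIsomorphisms where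
  of_iso e h := Projective.of_iso e h

omit [HasDerivedCategory.{w} C] in
/-- Cutting a complex of projectives with cohomology vanishing below `a`. -/
theorem cut (L : CochainComplex C ℤ) (hL : ∀ i, Projective (L.X i)) (a c : ℤ) [L.IsStrictlyLE c]
    (hH : ∀ i, i < a → IsZero (L.homology i)) (d : ℕ) (hd : HasProjectiveDimensionLT (L.opcycles a) (d + 1)) :
    (∀ i, Projective ((L.truncGE (a - d)).X i)) ∧
      (∀ i, i < a - d ∨ c < i → IsZero ((L.truncGE (a - d)).X i)) ∧ QuasiIso (L.πTruncGE (a - d)) := by
  refine ⟨fun i => ?_, fun i hi => ?_, ?_⟩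
  · exact Dcoh.BddCx.prop_truncGE_X (P := Proj C)
      (fun A hA => hA.projective) L (a - d) (projective_opcycles L hL a hH d hd) (fun i _ => hL i) i
  · rcases hi with hi | hi
    · exact (L.truncGE (a - d)).isZero_of_isStrictlyGE (a - d) i hi
    · exact Dcoh.BddCx.truncGE_isZero_of_lt L (a - d) c (fun i hi => L.isZero_of_isStrictlyLE c i hi) i hi
  · have : L.IsGE (a - d) := by
      rw [CochainComplex.isGE_iff]
      intro i hi
      rw [HomologicalComplex.exactAt_iff_isZero_homology]
      exact hH i (by lia)
    infer_instance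

/-- If the cohomology of `K` vanishes outside `[a, c]` and every object has projective dimension `≤ d`, then `K` is
represented by a complex of projectives vanishing outside `[a - d, c]`. -/
theorem exists_projective_bounded [EnoughProjectives C] (d : ℕ)
    (hd : ∀ X : C, HasProjectiveDimensionLT X (d + 1)) (K : DerivedCategory C) (a c : ℤ)
    (h1 : ∀ i, i < a → IsZero ((homologyFunctor C i).obj K))
    (h2 : ∀ i, c < i → IsZero ((homologyFunctor C i).obj K)) :
    ∃ L : CochainComplex C ℤ, (∀ i, Projective (L.X i)) ∧ (∀ i, i < a - d ∨ c < i → IsZero (L.X i)) ∧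
      Nonempty (Q.obj L ≅ K) := by
  obtain ⟨L, hL1, hL2, ⟨e⟩⟩ := exists_prop_isStrictlyLE (fun X : C => Projective X)
    ⟨(0 : C), isZero_zero C, inferInstance⟩ (fun X => ⟨Projective.over X, Projective.π X, inferInstance, inferInstance⟩)
    K c h2
  have hH : ∀ i, i < a → IsZero (L.homology i) := fun i hi =>
    (h1 i hi).of_iso (((homologyFunctorFactors C i).app L).symm ≪≫ (homologyFunctor C i).mapIso e)
  obtain ⟨h3, h4, h5⟩ := cut L hL2 a c hH d (hd _)
  exact ⟨_, h3, h4, ⟨(asIso (Q.map (L.πTruncGE (a - d)))).symm ≪≫ e⟩⟩

end Derived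

end Groth.Agent.Htor.H258.Cut
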