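import Groth.Prelude.Def_HTor
import Groth.Agent.PerfC.RpushTrunc
import Groth.Agent.Htor.H258.Cut

/-!
# Left exactness of `RΓA f`, and representation by bounded complexes of projectives
-/

set_option autoImplicit false

universe u

open CategoryTheory CategoryTheory.Limits AlgebraicGeometry
attribute [local instance] HasDerivedCategory.standard

namespace Groth.Agent.Htor.H258.RGammaGE

open Groth.Agent.Etrest

variable {A : Type u} [CommRing A] {X : Scheme.{u}} (f : X ⟶ Spec (CommRingCat.of A))

/-- `RΓA f` maps `D^{≥ a}` to `D^{≥ a}`. -/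
theorem isGE_RGammaA [HTor.HasRΓA f] (K : DCoh.D X) (a : ℤ) [K.IsGE a] : ((HTor.RΓA f).obj K).IsGE a := by
  have := PerfC.RpushTrunc.hasKInj X
  have := PerfC.RpushTrunc.enoughInjectives X
  have h := RDer3.TR_isGE (HTor.globalSectionsA f) K a
  exact @CategoryTheory.Triangulated.TStructure.isGE_of_iso _ _ _ _ _ _ _ DerivedCategory.TStructure.t
    _ _ ((RDer3.TRIso (HTor.globalSectionsA f)).app K).symm a h

/-- A complex of modules vanishing below `a` is in `D^{≥ a}`. -/
theorem isGE_toD (P : CochainComplex X.Modules ℤ) (a : ℤ) (h : ∀ i, i < a → IsZero (P.X i)) :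
    (DCoh.toD X P).IsGE a := by
  have : P.IsStrictlyGE a := (CochainComplex.isStrictlyGE_iff P a).2 h
  exact inferInstanceAs ((DerivedCategory.Q.obj P).IsGE a)

/-- Objects of `D(A)` with cohomology in `[a, c]` over a ring of global dimension `≤ d`. -/
theorem exists_projective_bounded (d : ℕ) (hA : ∀ M : ModuleCat.{u} A, HasProjectiveDimensionLT M (d + 1))
    (K : Dual.D A) (a c : ℤ) (h1 : K.IsGE a)
    (h2 : ∀ i, c < i → IsZero ((DerivedCategory.homologyFunctor (ModuleCat.{u} A) i).obj K)) :
    ∃ L : DRing.Cx A, (∀ i : ℤ, Module.Projective A (L.X i)) ∧ DRing.VanishesOutside L (a - d) c ∧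
      Nonempty (DRing.toD L ≅ K) := by
  obtain ⟨L, hL1, hL2, hL3⟩ := Cut.exists_projective_bounded d hA K a c
    (fun i hi => DerivedCategory.isZero_of_isGE K a i hi) h2
  exact ⟨L, fun i => (IsProjective.iff_projective (L.X i)).2 (hL1 i), hL2, hL3⟩

end Groth.Agent.Htor.H258.RGammaGE
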